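import Cfsg.Agent.H1.J2Cover
import Cfsg.Agent.NotCT.Orders
import Cfsg.Agent.H78.Pw.Base

/-!
# S2465 : the row of the Hall-Janko group `J2`

Every element is a product of two elements of order dividing 7, and a product of two elements of order prime to 7.
-/

set_option autoImplicit false

namespace Cfsg.Agent.H395.PwJ.JTwo

open Cfsg Cfsg.Agent.SporadicA.PermTab Cfsg.Agent.SporadicA.J2Hundred Cfsg.Agent.J2.HundredGens
open Cfsg.Agent.H1.J2Cls Cfsg.Agent.H1.J2Cover Cfsg.Agent.H78.Pw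

universe u

/-- words of order 7 -/
def wA (j : ℕ) : List ℕ :=
  match j with
  | 0 => [1, 2, 3, 4, 1, 2, 1, 0, 3]
  | 1 => [1, 0, 4, 1, 2, 3, 1, 4, 2, 4, 3]
  | 2 => [0, 1, 0, 2, 3, 1, 2, 1, 4, 1, 3, 2, 1, 3]
  | 3 => [2, 3, 2, 4, 0, 3, 0, 1, 0, 0, 0, 2, 1]
  | 4 => [4, 1, 0, 1, 0, 1, 2, 0, 1, 3, 2, 3]
  | 5 => [1, 2, 3, 4, 1, 2, 1, 0, 3]
  | 6 => [0, 2, 0, 3, 1, 2, 3, 1, 4, 0, 1]
  | 7 => [4, 0, 1, 3, 2, 3, 2, 1, 2]
  | 8 => [4, 0, 1, 3, 2, 3, 2, 1, 2]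
  | 9 => [0, 2, 0, 3, 1, 2, 3, 1, 4, 0, 1]
  | 10 => [0, 3, 2, 1, 3, 4, 3, 2, 0, 1, 3, 4, 2]
  | 11 => [2, 4, 3, 2, 1, 0, 3, 4, 1, 3, 0, 4, 2, 1]
  | 12 => [3, 1, 1, 4, 2, 3, 4, 2, 4, 1, 0, 2, 1]
  | 13 => [3, 0, 4, 2, 1, 2, 3, 0, 2, 1]
  | 14 => [3, 2, 4, 1, 2, 3, 2, 0, 0, 1, 0]
  | 15 => [1, 3, 2, 0, 1, 2, 1, 3, 1, 4, 2]
  | 16 => [1, 2, 3, 1, 4, 4, 2, 3, 4, 1, 0]
  | 17 => [0, 3, 2, 1, 2, 2, 2, 3, 4, 2, 1]
  | 18 => [1, 3, 2, 0, 1, 2, 1, 3, 1, 4, 2]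
  | 19 => [2, 1, 2, 4, 0, 3, 2, 1, 3, 0]
  | _ => [4, 2, 3, 1, 0, 1, 2, 1, 3]

/-- words of order prime to 7 -/
def wB (j : ℕ) : List ℕ :=
  match j with
  | 18 => [1, 3, 2, 1, 3, 2, 3, 4]
  | _ => []

/-- the power of a word -/
def rp (n : ℕ) (L : List ℕ) : List ℕ := (List.replicate n L).flatten

theorem gw_rp (n : ℕ) (L : List ℕ) : gw (rp n L) = gw L ^ n := by
  induction n with
  | zero => rfl
  | succ n ih =>
    rw [pow_succ', ← ih, ← gw_append]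
    rfl

set_option maxRecDepth 100000 in
theorem chkA : ∀ j < 21, ∀ i < 4, run (rp 7 (wA j)) (bs i) = bs i ∧
    run (rp 7 ((wA j).reverse ++ rL j)) (bs i) = bs i := by decide +kernel

set_option maxRecDepth 1000000 in
theorem chkB : ∀ j < 21, ∀ i < 4, run (rp 120 (wB j)) (bs i) = bs i ∧
    run (rp 120 ((wB j).reverse ++ rL j)) (bs i) = bs i := by decide +kernel

theorem gw_one {L : List ℕ} (h : ∀ i < 4, run L (bs i) = bs i) : gw L = 1 := by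
  rw [← gw_nil]
  exact Subtype.ext (pw_eq_of_base h)

theorem dec_model {N : ℕ} {w : ℕ → List ℕ} (hw : ∀ j < 21, ∀ i < 4, run (rp N (w j)) (bs i) = bs i ∧
    run (rp N ((w j).reverse ++ rL j)) (bs i) = bs i) {n : ℕ} (hn : N.Coprime n) : All n G := by
  intro g
  obtain ⟨j, hj, c, hc⟩ := cover g
  apply Pr.of_conj (x := c)
  rw [hc]
  have h1 : gw (w j) ^ N = 1 := by
    rw [← gw_rp]
    exact gw_one (fun i hi => (hw j hj i hi).1)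
  have h2 : gw ((w j).reverse ++ rL j) ^ N = 1 := by
    rw [← gw_rp]
    exact gw_one (fun i hi => (hw j hj i hi).2)
  refine ⟨gw (w j), gw ((w j).reverse ++ rL j), ?_, Nat.Coprime.of_dvd_left (orderOf_dvd_of_pow_eq_one h1) hn,
    Nat.Coprime.of_dvd_left (orderOf_dvd_of_pow_eq_one h2) hn⟩
  rw [gw_append, gw_reverse, mul_inv_cancel_left]

theorem pw_model : Pw G := by
  refine ⟨dec_model chkA (by norm_num), fun p hp h5 => ?_⟩
  by_cases h7 : p = 7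
  · rw [h7]
    exact dec_model chkB (by norm_num)
  · apply dec_model chkA
    rw [Nat.coprime_primes (by norm_num) hp]
    exact fun h => h7 h.symm

/-- **The row `J2` of S2465** -/
theorem pw_j2 {S : Type u} [Group S] (h : Spor.IsoJ2 S) : Pw S := by
  obtain ⟨f⟩ := J2.HundredGens.J2_iso (NotCT.Orders.j2 ⟨MulEquiv.refl _⟩)
  obtain ⟨e⟩ := h
  exact pw_model.congr (e.trans f).symm

end Cfsg.Agent.H395.PwJ.JTwo
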